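import Mathlib
import Cfsg.Prelude.Def_Classical
import Cfsg.Agent.Lib.Helper18.UEDefs
import Cfsg.Agent.Lib.Helper18.UODefs

/-!
# UO-CMAT (piece of S2334): the commutator matrix `β (a a'ᴴ - a' aᴴ)` is Hermitian; its trace form
-/

set_option autoImplicit false

namespace Cfsg.Agent.Lib.Helper18.UE

open Matrix

universe u

variable {F : Type u} [Field F] {m : ℕ}

-- piece CMAT
theorem cmat_herm (σ : F →+* F) (hσ : ∀ x, σ (σ x) = x) (β : F) (hβ : σ β = -β)
    (a a' : Fin m → F) : IsHerm σ (cmat σ β a a') := by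
  ext i j
  rw [hconj_apply]
  simp only [cmat, outer, Matrix.smul_apply, Matrix.sub_apply, smul_eq_mul, map_mul, map_sub,
    hσ, hβ]
  ring

-- piece CMAT
theorem cmat_trace (σ : F →+* F) (β : F) (K : Matrix (Fin m) (Fin m) F) (u : Fin m → F)
    (s t : F) :
    trace (cmat σ β (s • u) (t • u) * K) = β * hq σ K u * (s * σ t - t * σ s) := by
  unfold hq
  rw [hB_eq_sum, trace]
  simp only [Matrix.diag_apply, Matrix.mul_apply, cmat, outer, Matrix.smul_apply,
    Matrix.sub_apply, smul_eq_mul, Pi.smul_apply, map_mul]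
  rw [Finset.sum_comm, Finset.mul_sum, Finset.sum_mul]
  refine Finset.sum_congr rfl fun j _ => ?_
  rw [Finset.mul_sum, Finset.sum_mul]
  refine Finset.sum_congr rfl fun i _ => ?_
  ring

end Cfsg.Agent.Lib.Helper18.UE
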