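import Cfsg.Agent.Lib.Helper46.BSW0
import Cfsg.Agent.Lib.Helper87.BSWG0
import Cfsg.Agent.Lib.Helper59.BSWR
import Cfsg.Agent.Lib.Helper92.BSWG1
import Cfsg.Agent.Lib.Helper26.GrossAux

set_option autoImplicit false
set_option linter.style.haveILetI false
set_option linter.unusedSectionVars false

namespace Cfsg.Agent.Lib.Helper67.BSWE1

universe u

variable {G : Type u} [Group G]

/-- an involution inverting every element of a subgroup normalises it -/
theorem inv_mem_normalizer {M : Subgroup G} {u : G} (hu : u * u = 1)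
    (hinv : ∀ a ∈ M, u * a * u⁻¹ = a⁻¹) : u ∈ Subgroup.normalizer (M : Set G) := by
  have hu' : u⁻¹ = u := inv_eq_of_mul_eq_one_left hu
  rw [Subgroup.mem_normalizer_iff]
  intro x
  constructor
  · intro hx
    rw [hinv x hx]
    exact M.inv_mem hx
  · intro hx
    have h1 := hinv _ hx
    have h2 : u * (u * x * u⁻¹) * u⁻¹ = x := by
      rw [hu']
      calc u * (u * x * u) * u = (u * u) * x * (u * u) := by group
        _ = x := by rw [hu, one_mul, mul_one]
    rw [h2] at h1
    rw [h1]
    exact M.inv_mem hx

/-- the cardinality of the set of nonidentity elements of a finite subgroup -/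
theorem card_diff_one [Finite G] (M : Subgroup G) :
    Nat.card ↥((M : Set G) \ {1}) = Nat.card M - 1 := by
  rw [Nat.card_coe_set_eq, Set.ncard_sdiff_singleton_of_mem (M.one_mem)]
  congr 1

end Cfsg.Agent.Lib.Helper67.BSWE1

namespace Cfsg.Agent.Lib.Helper46.BSW

open Cfsg Cfsg.Agent.Lib.Helper4
open scoped ComplexConjugate

universe u

variable {G : Type u} [Group G]

theorem torus_of_E1 [Finite G] {t s : G} {K : Subgroup G} (h : Setup t s K)
    (hk : 4 ≤ Nat.card K) (Δ : IrrCharacter G) (hS : Stage1 K (-1) Δ) (z : G) (hz : Off K z)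
    (hz1 : (Δ : G → ℂ) z = 1) :
    ∃ u : G, TorusData K Δ (Subgroup.centralizer ({z} : Set G)) u := by
  classical
  -- an involution inverting `z`
  have hic : (invCount z : ℂ) = (Nat.card K : ℂ) - 1 := by
    rw [hS.a.inv_neg rfl z hz, hz1, mul_one]
  have hkC : ((Nat.card K : ℂ) - 1) ≠ 0 := by
    have h4 : (4 : ℝ) ≤ (Nat.card K : ℝ) := by exact_mod_cast hk
    intro h0
    have h1 : (Nat.card K : ℂ) = 1 := sub_eq_zero.mp h0
    have h2 : Nat.card K = 1 := by exact_mod_cast h1
    omega
  have hic0 : invCount z ≠ 0 := by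
    intro h0
    rw [h0, Nat.cast_zero] at hic
    exact hkC hic.symm
  obtain ⟨⟨u, hu, hzu⟩⟩ : Nonempty {u : G // orderOf u = 2 ∧ u * z * u⁻¹ = z⁻¹} := by
    by_contra hne
    rw [not_nonempty_iff] at hne
    exact hic0 Nat.card_of_isEmpty
  obtain ⟨s', K', h', hK', hoff⟩ := setup_conj h u hu
  have hz' : Off K' z := (hoff z).mpr hz
  obtain ⟨hab, hodd, hinv, hcent, hoffM, hcount, hnorm⟩ := strongly_real h' z hz' hzu
  have huu : u * u = 1 := by
    rw [← pow_two, ← hu]
    exact pow_orderOf_eq_one u
  have hu1 : u ≠ 1 := by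
    intro h1
    rw [h1, orderOf_one] at hu
    omega
  have hcard : Nat.card (Subgroup.centralizer ({z} : Set G)) + 1 = Nat.card K := by
    have h1 : ((Nat.card (Subgroup.centralizer ({z} : Set G)) + 1 : ℕ) : ℂ) = (Nat.card K : ℂ) := by
      rw [← hcount]
      push_cast
      rw [hic]
      ring
    exact_mod_cast h1
  have huM : u ∉ Subgroup.centralizer ({z} : Set G) := by
    intro huM
    have h1 := Subgroup.orderOf_dvd_natCard _ huM
    rw [hu] at h1
    exact (Nat.not_even_iff_odd.mpr hodd) (even_iff_two_dvd.mpr h1)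
  have huN : u ∈ Subgroup.normalizer
      ((Subgroup.centralizer ({z} : Set G) : Subgroup G) : Set G) :=
    Cfsg.Agent.Lib.Helper67.BSWE1.inv_mem_normalizer huu hinv
  refine ⟨u, hab, hcard, hu, huM, hinv, hcent, fun y hy hy1 => (hoff y).mp (hoffM y hy hy1), ?_, ?_⟩
  · -- values
    intro y hy hy1
    have hy' : Off K' y := hoffM y hy hy1
    obtain ⟨-, -, -, -, -, hcount', -⟩ := strongly_real h' y hy' (hinv y hy)
    rw [hcent y hy hy1] at hcount'
    have h1 := hS.a.inv_neg rfl y ((hoff y).mp hy')
    rw [hcount', ← hcount, hic] at h1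
    have h2 : ((Nat.card K : ℂ) - 1) * ((Δ : G → ℂ) y - 1) = 0 := by
      rw [mul_sub, mul_one, ← h1, sub_self]
    rcases mul_eq_zero.mp h2 with h3 | h3
    · exact absurd h3 hkC
    · exact sub_eq_zero.mp h3
  · -- the normalizer
    apply le_antisymm
    · intro g hg
      obtain ⟨a, ha, w, hw, rfl⟩ := hnorm g hg
      have hwN : w ∈ Subgroup.normalizer
          ((Subgroup.centralizer ({z} : Set G) : Subgroup G) : Set G) := by
        have h1 : w = a⁻¹ * (a * w) := by group
        rw [h1]
        exact Subgroup.mul_mem _ (Subgroup.inv_mem _ (Subgroup.le_normalizer ha)) hg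
      -- the subgroup `W`
      obtain ⟨W, hWdef⟩ : ∃ W : Subgroup G, W = Subgroup.normalizer
          ((Subgroup.centralizer ({z} : Set G) : Subgroup G) : Set G) ⊓ K' := ⟨_, rfl⟩
      have hwW : w ∈ W := by
        rw [hWdef]
        exact ⟨hwN, hw⟩
      have hWK : W ≤ K' := by
        rw [hWdef]
        exact inf_le_right
      have hWN : W ≤ Subgroup.normalizer
          ((Subgroup.centralizer ({z} : Set G) : Subgroup G) : Set G) := by
        rw [hWdef]
        exact inf_le_left
      have hd1 : Nat.card W ∣ Nat.card K := by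
        rw [← hK']
        exact Subgroup.card_dvd_of_le hWK
      have hd2 : Nat.card W ∣ Nat.card (Subgroup.centralizer ({z} : Set G)) - 1 := by
        rw [← Cfsg.Agent.Lib.Helper67.BSWE1.card_diff_one]
        apply Cfsg.Agent.Lib.Helper26.gross_free_dvd
        · intro b hb y hy
          refine ⟨(Subgroup.mem_normalizer_iff.mp (hWN hb) y).mp hy.1, ?_⟩
          intro h1
          apply hy.2
          rw [Set.mem_singleton_iff] at h1 ⊢
          have h2 : y = b⁻¹ * (b * y * b⁻¹) * b := by group
          rw [h2, h1]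
          group
        · intro b hb y hy hby
          by_contra hb1
          have hy1 : y ≠ 1 := fun h1 => hy.2 (Set.mem_singleton_iff.mpr h1)
          have h1 : y ∈ Subgroup.centralizer ({b} : Set G) := by
            rw [Subgroup.mem_centralizer_iff]
            intro c hc
            rw [Set.mem_singleton_iff] at hc
            rw [hc]
            calc b * y = (b * y * b⁻¹) * b := by group
              _ = y * b := by rw [hby]
          have h2 := setup_cent_le h' b (hWK hb) hb1 h1
          exact setup_cent_not_off h' y h2 (hoffM y hy.1 hy1)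
      have hd3 : Nat.card W ∣ 2 := by
        have h1 : Nat.card K - (Nat.card (Subgroup.centralizer ({z} : Set G)) - 1) = 2 := by
          omega
        rw [← h1]
        exact Nat.dvd_sub hd1 hd2
      have hw2 : w * w = 1 := by
        have h1 := (Subgroup.orderOf_dvd_natCard _ hwW).trans hd3
        rw [← pow_two]
        exact orderOf_dvd_iff_pow_eq_one.mp h1
      rcases setup_sq h' w hw hw2 with h1 | h1
      · rw [h1, mul_one]
        exact Subgroup.mem_sup_left ha
      · rw [h1]
        exact Subgroup.mul_mem_sup ha (Subgroup.mem_zpowers u)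
    · rw [sup_le_iff]
      exact ⟨Subgroup.le_normalizer, (Subgroup.zpowers_le).mpr huN⟩

end Cfsg.Agent.Lib.Helper46.BSW
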