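import Mathlib

set_option autoImplicit false

namespace Cfsg.Agent.Lib.Helper67.OUPieces

/-- the map determined by the images of the generators -/
def phiD (a b : DihedralGroup 4) : DihedralGroup 4 → DihedralGroup 4
  | DihedralGroup.r i => a ^ i.val
  | DihedralGroup.sr i => b * a ^ i.val

set_option maxRecDepth 100000 in
theorem phiD_four : ∀ a b : DihedralGroup 4, (∀ x y, phiD a b x = phiD a b y → x = y) →
    ∀ x, phiD a b (phiD a b (phiD a b (phiD a b x))) = x := by
  decide +kernel

theorem aut_eq_phiD (α : MulAut (DihedralGroup 4)) (x : DihedralGroup 4) :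
    α x = phiD (α (DihedralGroup.r 1)) (α (DihedralGroup.sr 0)) x := by
  cases x with
  | r i =>
    show α (DihedralGroup.r i) = α (DihedralGroup.r 1) ^ i.val
    rw [← map_pow, DihedralGroup.r_one_pow, ZMod.natCast_zmod_val]
  | sr i =>
    show α (DihedralGroup.sr i) = α (DihedralGroup.sr 0) * α (DihedralGroup.r 1) ^ i.val
    rw [← map_pow, ← map_mul, DihedralGroup.r_one_pow, ZMod.natCast_zmod_val,
      DihedralGroup.sr_mul_r, zero_add]

/-- every automorphism of the dihedral group of order 8 has order dividing 4 -/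
theorem aut_pow_four (α : MulAut (DihedralGroup 4)) : α ^ 4 = 1 := by
  apply MulEquiv.ext
  intro x
  have hinj : ∀ x y, phiD (α (DihedralGroup.r 1)) (α (DihedralGroup.sr 0)) x
      = phiD (α (DihedralGroup.r 1)) (α (DihedralGroup.sr 0)) y → x = y := by
    intro x y hxy
    rw [← aut_eq_phiD, ← aut_eq_phiD] at hxy
    exact α.injective hxy
  have h4 := phiD_four _ _ hinj x
  rw [← aut_eq_phiD, ← aut_eq_phiD, ← aut_eq_phiD, ← aut_eq_phiD] at h4
  show (α ^ 4) x = x
  have e : (α ^ 4) x = α (α (α (α x))) := rfl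
  rw [e, h4]

/-- an automorphism of odd order of a group isomorphic to the dihedral group of order 8
is trivial -/
theorem aut_eq_one_of_odd {D : Type*} [Group D] (θ : D ≃* DihedralGroup 4) (α : MulAut D)
    (f : ℕ) (hf : Odd f) (hα : α ^ f = 1) : α = 1 := by
  let β : MulAut (DihedralGroup 4) := (θ.symm.trans α).trans θ
  have hβ : ∀ k : ℕ, ∀ x, (β ^ k) x = θ ((α ^ k) (θ.symm x)) := by
    intro k
    induction k with
    | zero => intro x; simp
    | succ k ih =>
      intro x
      rw [pow_succ, MulAut.mul_apply, ih, pow_succ, MulAut.mul_apply]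
      show θ ((α ^ k) (θ.symm (θ (α (θ.symm x))))) = _
      rw [θ.symm_apply_apply]
  have h4 : α ^ 4 = 1 := by
    apply MulEquiv.ext
    intro d
    have h1 := hβ 4 (θ d)
    rw [aut_pow_four β, θ.symm_apply_apply] at h1
    have h2 : θ d = θ ((α ^ 4) d) := h1
    exact (θ.injective h2).symm
  have hcop : Nat.gcd 4 f = 1 := by
    have h2 : Nat.Coprime 2 f := Nat.coprime_two_left.mpr hf
    exact Nat.Coprime.pow_left 2 h2
  have := (pow_gcd_eq_one (a := α) (m := 4) (n := f)).2 ⟨h4, hα⟩
  rw [hcop, pow_one] at this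
  exact this

theorem out_dihedral_cyclic {A R : Type*} [Group A] [Finite A] [Group R] (N : Subgroup A)
    [N.Normal] (ρ : A →* R) (K : Subgroup A) (hK : ρ.ker = K) (f : ℕ) (hfodd : Odd f)
    (hR : Nat.card R = f) (hcyc : IsCyclic R) (hsurj : Function.Surjective ρ) (hN : N ≤ K)
    (ψ : ↥K →* DihedralGroup 4) (hψ : Function.Surjective ψ) (hker : ψ.ker = N.subgroupOf K) :
    Nonempty (A ⧸ N ≃* DihedralGroup 4 × Multiplicative (ZMod f)) := by
  classical
  have hKn : K.Normal := hK ▸ MonoidHom.normal_ker ρ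
  let π : A →* A ⧸ N := QuotientGroup.mk' N
  have hπ : Function.Surjective π := QuotientGroup.mk'_surjective N
  let D : Subgroup (A ⧸ N) := K.map π
  have hDn : D.Normal := Subgroup.Normal.map hKn π hπ
  -- D is dihedral of order 8
  let πK : ↥K →* ↥D := π.subgroupMap K
  have hπK : Function.Surjective πK := π.subgroupMap_surjective K
  have hkerπK : πK.ker = ψ.ker := by
    rw [hker]
    show (π.subgroupMap K).ker = _
    rw [Subgroup.ker_subgroupMap, QuotientGroup.ker_mk']
  let θ : ↥D ≃* DihedralGroup 4 :=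
    (QuotientGroup.quotientKerEquivOfSurjective πK hπK).symm.trans
      ((QuotientGroup.quotientMulEquivOfEq hkerπK).trans
        (QuotientGroup.quotientKerEquivOfSurjective ψ hψ))
  have hcardD : Nat.card D = 8 := by
    rw [Nat.card_congr θ.toEquiv, DihedralGroup.nat_card]
  -- the quotient by D is R
  have hNker : N ≤ ρ.ker := hK ▸ hN
  let ρ' : A ⧸ N →* R := QuotientGroup.lift N ρ hNker
  have hρ' : Function.Surjective ρ' := by
    intro r
    obtain ⟨a, rfl⟩ := hsurj r
    exact ⟨π a, rfl⟩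
  have hkerρ' : ρ'.ker = D := by
    show (QuotientGroup.lift N ρ hNker).ker = K.map π
    rw [QuotientGroup.ker_lift, hK]
  have hindex : D.index = f := by
    rw [← hkerρ', Subgroup.index_ker, MonoidHom.range_eq_top.2 hρ', Subgroup.card_top, hR]
  -- Schur–Zassenhaus
  have hcop : Nat.Coprime (Nat.card D) D.index := by
    rw [hcardD, hindex]
    have h2 : Nat.Coprime 2 f := Nat.coprime_two_left.mpr hfodd
    exact Nat.Coprime.pow_left 3 h2
  obtain ⟨C, hC⟩ := Subgroup.exists_right_complement'_of_coprime hcop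
  have hcardC : Nat.card C = f := by
    have h1 := hC.card_mul_card
    have h2 := D.card_mul_index
    rw [hindex] at h2
    rw [hcardD] at h1 h2
    omega
  -- C is isomorphic to R
  have hCinj : Function.Injective (ρ'.comp C.subtype) := by
    rw [injective_iff_map_eq_one]
    intro c hc
    have hcD : (c : A ⧸ N) ∈ D := by
      rw [← hkerρ']
      exact hc
    have := Subgroup.disjoint_def.1 hC.disjoint hcD c.2
    exact Subtype.ext this
  have hRfin : Finite R := Nat.finite_of_card_ne_zero (by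
    rw [hR]; rintro rfl; exact (Nat.not_even_iff_odd.2 hfodd) ⟨0, rfl⟩)
  have hCbij : Function.Bijective (ρ'.comp C.subtype) :=
    hCinj.bijective_of_nat_card_le (by rw [hcardC, hR])
  let κ : ↥C ≃* R := MulEquiv.ofBijective (ρ'.comp C.subtype) hCbij
  have hCcyc : IsCyclic ↥C := isCyclic_of_surjective κ.symm κ.symm.surjective
  let ζ : Multiplicative (ZMod f) ≃* ↥C := hcardC ▸ zmodCyclicMulEquiv hCcyc
  -- C centralizes D
  have hcomm : ∀ c ∈ C, ∀ d ∈ D, c * d = d * c := by
    intro c hc d hd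
    have hα : (MulAut.conjNormal c : MulAut ↥D) ^ f = 1 := by
      rw [← map_pow]
      have hcf : c ^ f = 1 := by
        have := pow_card_eq_one' (G := ↥C) (x := ⟨c, hc⟩)
        rw [hcardC] at this
        exact congrArg Subtype.val this
      rw [hcf, map_one]
    have h1 := aut_eq_one_of_odd θ (MulAut.conjNormal c : MulAut ↥D) f hfodd hα
    have h2 := congrArg (fun α : MulAut ↥D => ((α ⟨d, hd⟩ : ↥D) : A ⧸ N)) h1
    simp only [MulAut.conjNormal_apply, MulAut.one_apply] at h2
    calc c * d = c * d * c⁻¹ * c := by group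
      _ = d * c := by rw [h2]
  -- the product decomposition
  let μ : ↥D × ↥C →* A ⧸ N :=
    { toFun := fun x => (x.1 : A ⧸ N) * (x.2 : A ⧸ N)
      map_one' := by simp
      map_mul' := by
        rintro ⟨d₁, c₁⟩ ⟨d₂, c₂⟩
        show ((d₁ * d₂ : ↥D) : A ⧸ N) * ((c₁ * c₂ : ↥C) : A ⧸ N)
          = (d₁ : A ⧸ N) * (c₁ : A ⧸ N) * ((d₂ : A ⧸ N) * (c₂ : A ⧸ N))
        rw [Subgroup.coe_mul, Subgroup.coe_mul]
        have h := hcomm c₁ c₁.2 d₂ d₂.2
        calc (d₁ : A ⧸ N) * d₂ * (c₁ * c₂) = d₁ * (d₂ * c₁) * c₂ := by group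
          _ = d₁ * (c₁ * d₂) * c₂ := by rw [h]
          _ = _ := by group }
  have hμ : Function.Bijective μ := hC
  let e : ↥D × ↥C ≃* A ⧸ N := MulEquiv.ofBijective μ hμ
  exact ⟨e.symm.trans (MulEquiv.prodCongr θ ζ.symm)⟩

end Cfsg.Agent.Lib.Helper67.OUPieces
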